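import Mathlib

/-!
# S1906 packages (helper51)

`S1906`: a Sylow 2-subgroup `X` of a finite group without subgroups of index 2, embedded in
`GL₃(F)` (`F` of odd order) and containing `E₈`, is abelian.

Proof plan (all packages are independent):
* `LemDiag`: a finite set of commuting involutions of `GL₃(F)` is simultaneously diagonal (±1).
* `LemCentral`: a nonabelian 2-subgroup of `GL₃(F)` has a central non-scalar element.
* `LemDerived`: a nonabelian 2-group has a central involution inside its commutator subgroup.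
* `LemCore`: (matrix computation) existence of a central involution `u` with
  `det (f (α u)) = -1` for every automorphism `α` of `X`.
* `LemTransferVal`: the transfer of `μ` evaluated at such a `u` is `-1`.
* `LemIndexTwo`: a homomorphism to `Fˣ` taking the value `-1` gives a subgroup of index 2.
-/

set_option autoImplicit false

universe u v

namespace Cfsg.Agent.Lib.Helper51.GL3

/-- The matrix of `a` is diagonal with entries `±1`. -/
def IsSignDiag {F : Type v} [Field F] (a : GL (Fin 3) F) : Prop :=
  ∃ w : Fin 3 → F, (∀ i, w i = 1 ∨ w i = -1) ∧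
    (a : Matrix (Fin 3) (Fin 3) F) = Matrix.diagonal w

/-- Simultaneous diagonalisation of a finite set of commuting involutions. -/
def LemDiag : Prop :=
  ∀ {F : Type v} [Field F] (S : Set (GL (Fin 3) F)), S.Finite → (2 : F) ≠ 0 →
    (∀ a ∈ S, ∀ b ∈ S, a * b = b * a) → (∀ a ∈ S, a * a = 1) →
    ∃ P : GL (Fin 3) F, ∀ a ∈ S, IsSignDiag (P⁻¹ * a * P)

/-- A nonabelian 2-subgroup of `GL₃(F)` has a central element which is not a scalar matrix. -/
def LemCentral : Prop :=
  ∀ {X : Type u} [Group X] [Finite X] {F : Type v} [Field F], IsPGroup 2 X →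
    ∀ (f : X →* GL (Fin 3) F), Function.Injective f → (¬ ∀ a b : X, a * b = b * a) →
    ∃ z ∈ Subgroup.center X, ¬ ∃ c : F,
      ((f z : GL (Fin 3) F) : Matrix (Fin 3) (Fin 3) F) = Matrix.diagonal (fun _ => c)

/-- A nonabelian 2-group has a central involution inside its commutator subgroup. -/
def LemDerived : Prop :=
  ∀ {X : Type u} [Group X] [Finite X], IsPGroup 2 X → (¬ ∀ a b : X, a * b = b * a) →
    ∃ w ∈ Subgroup.center X, w ∈ commutator X ∧ w ^ 2 = 1 ∧ w ≠ 1

/-- The core: a central involution `u` all of whose images under automorphisms of `X`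
have determinant `-1`. -/
def LemCore : Prop :=
  ∀ {X : Type u} [Group X] [Finite X] {F : Type v} [Field F], (2 : F) ≠ 0 → IsPGroup 2 X →
    ∀ (f : X →* GL (Fin 3) F), Function.Injective f →
    ∀ (D : Subgroup X), Nat.card D = 8 → (∀ d ∈ D, IsSignDiag (f d)) →
    (¬ ∀ a b : X, a * b = b * a) →
    ∃ u : X, u ∈ Subgroup.center X ∧ u ^ 2 = 1 ∧
      ∀ α : X ≃* X, Matrix.det ((f (α u) : GL (Fin 3) F) : Matrix (Fin 3) (Fin 3) F) = -1

/-- Transfer evaluation: if `u` is a central involution of the Sylow 2-subgroup `X` and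
`μ (α u) = -1` for all automorphisms `α` of `X`, then the transfer of `μ` maps `u` to `-1`. -/
def LemTransferVal : Prop :=
  ∀ {G : Type u} [Group G] [Finite G] (X : Sylow 2 G) {F : Type v} [Field F]
    (μ : ↥(X : Subgroup G) →* Fˣ) (u : ↥(X : Subgroup G)),
    u ∈ Subgroup.center ↥(X : Subgroup G) → u ^ 2 = 1 →
    (∀ α : ↥(X : Subgroup G) ≃* ↥(X : Subgroup G), μ (α u) = -1) →
    MonoidHom.transfer μ (u : G) = -1

/-- A homomorphism from a finite group to `Fˣ` taking the value `-1 ≠ 1` gives a subgroup of
index 2. -/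
def LemIndexTwo : Prop :=
  ∀ {G : Type u} [Group G] [Finite G] {F : Type v} [Field F] (T : G →* Fˣ) (g : G),
    T g = -1 → (-1 : Fˣ) ≠ 1 → ∃ H : Subgroup G, H.index = 2

end Cfsg.Agent.Lib.Helper51.GL3
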