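import Cfsg.Prelude.Def_Transfer
import Cfsg.Agent.Lib.Helper51.GL3.Defs

/-!
# S1906 from the packages (helper51)
-/

set_option autoImplicit false

universe u v

namespace Cfsg.Agent.Lib.Helper51.GL3

theorem two_ne_zero_of_odd_card {F : Type v} [Field F] [Fintype F]
    (hF : Odd (Fintype.card F)) : (2 : F) ≠ 0 := by
  intro h2
  have hc : ringChar F = 2 := CharP.ringChar_of_prime_eq_zero Nat.prime_two h2
  have := (FiniteField.even_card_iff_char_two (F := F)).mp hc
  rcases hF with ⟨k, hk⟩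
  omega

theorem main (hDiag : LemDiag.{v}) (hCore : LemCore.{u, v}) (hTV : LemTransferVal.{u, v})
    (hI : LemIndexTwo.{u, v})
    {G : Type u} [Group G] [Finite G] (hG : ∀ H : Subgroup G, H.index ≠ 2) (X : Sylow 2 G)
    {F : Type v} [Field F] [Fintype F] (hF : Odd (Fintype.card F))
    (f : ↥(X : Subgroup G) →* GL (Fin 3) F) (hf : Function.Injective f)
    (E : Subgroup G) (hE : E ≤ (X : Subgroup G)) (hEa : Cfsg.IsElementaryAbelian 2 E)
    (hE8 : Nat.card E = 8) :
    IsMulCommutative (X : Subgroup G) := by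
  by_contra hna
  have h2 : (2 : F) ≠ 0 := two_ne_zero_of_odd_card hF
  have hna' : ¬ ∀ a b : ↥(X : Subgroup G), a * b = b * a := by
    intro h
    exact hna ⟨⟨h⟩⟩
  -- the subgroup `D` of `X`
  set D : Subgroup ↥(X : Subgroup G) := E.subgroupOf (X : Subgroup G) with hD
  have hDcard : Nat.card D = 8 := by
    rw [hD, Nat.card_congr (Subgroup.subgroupOfEquivOfLe hE).toEquiv, hE8]
  have hDcomm : ∀ a ∈ D, ∀ b ∈ D, a * b = b * a := by
    intro a ha b hb
    have ha' : (a : G) ∈ E := Subgroup.mem_subgroupOf.mp ha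
    have hb' : (b : G) ∈ E := Subgroup.mem_subgroupOf.mp hb
    have hc := hEa.1
    have := hc.is_comm.comm (⟨(a : G), ha'⟩ : ↥E) ⟨(b : G), hb'⟩
    apply Subtype.ext
    have h3 := congrArg (Subtype.val : ↥E → G) this
    simpa using h3
  have hDsq : ∀ a ∈ D, a * a = 1 := by
    intro a ha
    have ha' : (a : G) ∈ E := Subgroup.mem_subgroupOf.mp ha
    have := hEa.2 (a : G) ha'
    apply Subtype.ext
    simpa [pow_two] using this
  -- diagonalise
  obtain ⟨P, hP⟩ := hDiag (f '' (D : Set ↥(X : Subgroup G)))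
    ((Set.toFinite (D : Set ↥(X : Subgroup G))).image f) h2
    (by
      rintro _ ⟨a, ha, rfl⟩ _ ⟨b, hb, rfl⟩
      rw [← map_mul, ← map_mul, hDcomm a ha b hb])
    (by
      rintro _ ⟨a, ha, rfl⟩
      rw [← map_mul, hDsq a ha, map_one])
  set f' : ↥(X : Subgroup G) →* GL (Fin 3) F := (MulAut.conj P⁻¹).toMonoidHom.comp f with hf'
  have hf'apply : ∀ x, f' x = P⁻¹ * f x * P := by
    intro x
    simp [hf']
  have hf'inj : Function.Injective f' := by
    intro x y hxy
    apply hf
    rw [hf'apply, hf'apply] at hxy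
    exact mul_left_cancel (mul_right_cancel hxy)
  have hdet : ∀ x, Matrix.det ((f' x : GL (Fin 3) F) : Matrix (Fin 3) (Fin 3) F)
      = Matrix.det ((f x : GL (Fin 3) F) : Matrix (Fin 3) (Fin 3) F) := by
    intro x
    have := congrArg (fun g : GL (Fin 3) F => ((Matrix.GeneralLinearGroup.det g : Fˣ) : F))
      (hf'apply x)
    simpa using this
  obtain ⟨u, huZ, hu2, hu⟩ := hCore h2 X.isPGroup' f' hf'inj D hDcard
    (by
      intro d hd
      rw [hf'apply]
      exact hP _ ⟨d, hd, rfl⟩) hna'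
  set μ : ↥(X : Subgroup G) →* Fˣ := Matrix.GeneralLinearGroup.det.comp f with hμ
  have hμval : ∀ α : ↥(X : Subgroup G) ≃* ↥(X : Subgroup G), μ (α u) = -1 := by
    intro α
    apply Units.ext
    have := hu α
    rw [hdet] at this
    simpa [hμ] using this
  have hT := hTV X μ u huZ hu2 hμval
  have hne : (-1 : Fˣ) ≠ 1 := by
    intro h
    have h' : ((-1 : Fˣ) : F) = ((1 : Fˣ) : F) := congrArg Units.val h
    have h'' : (-1 : F) = 1 := by simpa using h'
    apply h2
    have : (2 : F) = 1 - (-1) := by ring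
    rw [this, h'']; ring
  obtain ⟨H, hH⟩ := hI (MonoidHom.transfer μ) (u : G) hT hne
  exact hG H hH

end Cfsg.Agent.Lib.Helper51.GL3
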