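import Cfsg.Agent.Lib.Helper51.GL3.Defs

/-!
# S1906: the core matrix computation (helper51)
-/

set_option autoImplicit false

universe u v

namespace Cfsg.Agent.Lib.Helper51.GL3

section
variable {X : Type u} [Group X] {F : Type v} [Field F] (f : X →* GL (Fin 3) F)

/-- The matrix of `f x`. -/
def mat (x : X) : Matrix (Fin 3) (Fin 3) F := ((f x : GL (Fin 3) F) : Matrix (Fin 3) (Fin 3) F)

theorem mat_mul (x y : X) : mat f (x * y) = mat f x * mat f y := by simp [mat]

theorem mat_one : mat f (1 : X) = 1 := by simp [mat]

theorem mat_inj (hf : Function.Injective f) {x y : X} (h : mat f x = mat f y) : x = y :=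
  hf (Units.ext h)

theorem entry_comm {x y : X} (hxy : x * y = y * x) {w : Fin 3 → F}
    (hy : mat f y = Matrix.diagonal w) (i j : Fin 3) :
    mat f x i j * w j = w i * mat f x i j := by
  have h0 : mat f x * mat f y = mat f y * mat f x := by rw [← mat_mul, ← mat_mul, hxy]
  have h := congrArg (fun M : Matrix (Fin 3) (Fin 3) F => M i j) h0
  simpa [hy, Matrix.mul_diagonal, Matrix.diagonal_mul] using h

theorem mat_eq_diagonal {x : X} (h : ∀ i j, i ≠ j → mat f x i j = 0) :
    mat f x = Matrix.diagonal (fun p => mat f x p p) := by
  ext i j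
  by_cases hij : i = j
  · subst hij; simp
  · rw [h i j hij, Matrix.diagonal_apply_ne _ hij]

theorem comm_of_all_diagonal (hf : Function.Injective f)
    (h : ∀ x i j, i ≠ j → mat f x i j = 0) : ∀ a b : X, a * b = b * a := by
  intro a b
  apply mat_inj f hf
  rw [mat_mul, mat_mul, mat_eq_diagonal f (h a), mat_eq_diagonal f (h b),
    Matrix.diagonal_mul_diagonal, Matrix.diagonal_mul_diagonal]
  congr 1
  funext p
  exact mul_comm _ _

theorem det_mat_eq_one_of_mem_commutator {y : X} (hy : y ∈ commutator X) :
    Matrix.det (mat f y) = 1 := by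
  have h := Abelianization.commutator_subset_ker (Matrix.GeneralLinearGroup.det.comp f) hy
  rw [MonoidHom.mem_ker] at h
  have h' := congrArg (fun t : Fˣ => (t : F)) h
  simpa [mat] using h'

end

theorem fin3_cases : ∀ i j k p q : Fin 3, i ≠ k → j ≠ k → i ≠ j → p ≠ q →
    p = k ∨ q = k ∨ (p = i ∧ q = j) ∨ (p = j ∧ q = i) := by decide

theorem lemCore (hC : LemCentral.{u, v}) (hD : LemDerived.{u}) : LemCore.{u, v} := by
  intro X _ _ F _ h2 hX f hf D hDcard hDdiag hna
  classical
  have hneg : (-1 : F) ≠ 1 := by
    intro h
    apply h2
    have : (2 : F) = 1 - (-1) := by ring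
    rw [this, h]; ring
  -- entries of elements of `D`
  have hDent : ∀ d ∈ D, (∀ i j, i ≠ j → mat f d i j = 0) ∧
      ∀ i, mat f d i i = 1 ∨ mat f d i i = -1 := by
    intro d hd
    obtain ⟨w, hw, hdw⟩ := hDdiag d hd
    have h1 : mat f d = Matrix.diagonal w := hdw
    constructor
    · intro i j hij; rw [h1, Matrix.diagonal_apply_ne _ hij]
    · intro i; rw [h1, Matrix.diagonal_apply_eq]; exact hw i
  -- the sign pattern map is a bijection
  let g : ↥D → (Fin 3 → Bool) := fun d i => decide (mat f (d : X) i i = 1)
  have hg_inj : Function.Injective g := by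
    intro d d' h
    apply Subtype.ext
    apply mat_inj f hf
    ext i j
    by_cases hij : i = j
    · subst hij
      have hi : decide (mat f (d : X) i i = 1) = decide (mat f (d' : X) i i = 1) := congrFun h i
      rw [decide_eq_decide] at hi
      rcases (hDent d d.2).2 i with h1 | h1 <;> rcases (hDent d' d'.2).2 i with h1' | h1'
      · rw [h1, h1']
      · exact absurd ((hi.mp h1).symm.trans h1').symm hneg
      · exact absurd ((hi.mpr h1').symm.trans h1).symm hneg
      · rw [h1, h1']
    · rw [(hDent d d.2).1 i j hij, (hDent d' d'.2).1 i j hij]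
  have hg_surj : Function.Surjective g := by
    have hb : Function.Bijective g := by
      apply hg_inj.bijective_of_nat_card_le
      rw [hDcard]
      simp
    exact hb.2
  have hpat : ∀ b : Fin 3 → Bool, ∃ d ∈ D,
      mat f d = Matrix.diagonal (fun p => if b p then (1 : F) else -1) := by
    intro b
    obtain ⟨d, hd⟩ := hg_surj b
    refine ⟨d, d.2, ?_⟩
    ext i j
    by_cases hij : i = j
    · subst hij
      rw [Matrix.diagonal_apply_eq]
      have hi : decide (mat f (d : X) i i = 1) = b i := congrFun hd i
      cases hbi : b i
      · rw [hbi] at hi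
        have hne : mat f (d : X) i i ≠ 1 := by simpa using hi
        rcases (hDent d d.2).2 i with h1 | h1
        · exact absurd h1 hne
        · simpa using h1
      · rw [hbi] at hi
        have heq : mat f (d : X) i i = 1 := by simpa using hi
        simpa using heq
    · rw [(hDent d d.2).1 i j hij, Matrix.diagonal_apply_ne _ hij]
  -- elements commuting with `D` are diagonal
  have hdiag : ∀ x : X, (∀ d ∈ D, x * d = d * x) → ∀ i j, i ≠ j → mat f x i j = 0 := by
    intro x hx i j hij
    obtain ⟨d, hdD, hd⟩ := hpat (fun p => decide (p ≠ i))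
    have h := entry_comm f (hx d hdD) hd i j
    have hji : j ≠ i := fun h => hij h.symm
    simp only [ne_eq, decide_not, hji, not_false_eq_true, decide_true, Bool.not_false,
      if_true, mul_one, decide_false, Bool.not_true, if_false, Bool.false_eq_true,
      not_true_eq_false, neg_mul, one_mul] at h
    have h3 : (2 : F) * mat f x i j = 0 := by linear_combination h
    rcases mul_eq_zero.mp h3 with h4 | h4
    · exact absurd h4 h2
    · exact h4
  have hcdiag : ∀ x ∈ Subgroup.center X, ∀ i j, i ≠ j → mat f x i j = 0 := by
    intro x hx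
    apply hdiag
    intro d _
    exact ((Subgroup.mem_center_iff.mp hx) d).symm
  -- the central non-scalar element
  obtain ⟨z, hzZ, hzns⟩ := hC hX f hf hna
  have hzd : mat f z = Matrix.diagonal (fun p => mat f z p p) := mat_eq_diagonal f (hcdiag z hzZ)
  have hk : ∃ k : Fin 3, ∀ p : Fin 3, p ≠ k → mat f z p p ≠ mat f z k k := by
    by_contra hcon
    push Not at hcon
    apply hzns
    refine ⟨mat f z 0 0, ?_⟩
    have e1 : mat f z 1 1 = mat f z 0 0 := by
      by_contra h10
      by_cases h12 : mat f z 1 1 = mat f z 2 2
      · obtain ⟨p, hp, hpe⟩ := hcon 0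
        fin_cases p
        · exact hp rfl
        · exact h10 hpe
        · exact h10 (h12.trans hpe)
      · by_cases h02 : mat f z 0 0 = mat f z 2 2
        · obtain ⟨p, hp, hpe⟩ := hcon 1
          fin_cases p
          · exact h10 hpe.symm
          · exact hp rfl
          · exact h10 (hpe.symm.trans h02.symm)
        · obtain ⟨p, hp, hpe⟩ := hcon 2
          fin_cases p
          · exact h02 hpe
          · exact h12 hpe
          · exact hp rfl
    have e2 : mat f z 2 2 = mat f z 0 0 := by
      by_contra h20
      obtain ⟨p, hp, hpe⟩ := hcon 2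
      fin_cases p
      · exact h20 hpe.symm
      · exact h20 (hpe.symm.trans e1)
      · exact hp rfl
    change mat f z = _
    rw [hzd]
    congr 1
    funext p
    fin_cases p
    · rfl
    · exact e1
    · exact e2
  obtain ⟨k, hk⟩ := hk
  have hblock : ∀ x : X, ∀ p : Fin 3, p ≠ k → mat f x p k = 0 ∧ mat f x k p = 0 := by
    intro x p hp
    have hxz : x * z = z * x := (Subgroup.mem_center_iff.mp hzZ) x
    have h1 := entry_comm f hxz hzd p k
    have h2' := entry_comm f hxz hzd k p
    have hne : mat f z p p - mat f z k k ≠ 0 := sub_ne_zero.mpr (hk p hp)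
    constructor
    · have : mat f x p k * (mat f z p p - mat f z k k) = 0 := by linear_combination -h1
      rcases mul_eq_zero.mp this with h | h
      · exact h
      · exact absurd h hne
    · have : mat f x k p * (mat f z p p - mat f z k k) = 0 := by linear_combination h2'
      rcases mul_eq_zero.mp this with h | h
      · exact h
      · exact absurd h hne
  -- central involutions
  have hcent : ∀ w ∈ Subgroup.center X, w ^ 2 = 1 →
      (∀ p, mat f w p p = 1 ∨ mat f w p p = -1) ∧
      (∀ i j, i ≠ k → j ≠ k → mat f w i i = mat f w j j) := by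
    intro w hwZ hw2
    have hwd : mat f w = Matrix.diagonal (fun p => mat f w p p) :=
      mat_eq_diagonal f (hcdiag w hwZ)
    have hsq : mat f w * mat f w = 1 := by
      rw [← mat_mul, ← pow_two, hw2, mat_one]
    constructor
    · intro p
      have h := congrArg (fun M : Matrix (Fin 3) (Fin 3) F => M p p) hsq
      rw [hwd] at h
      simp only [Matrix.diagonal_mul_diagonal, Matrix.diagonal_apply_eq, Matrix.one_apply_eq] at h
      have h' : (mat f w p p - 1) * (mat f w p p + 1) = 0 := by linear_combination h
      rcases mul_eq_zero.mp h' with h1 | h1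
      · left; linear_combination h1
      · right; linear_combination h1
    · intro i j hi hj
      by_contra hne
      have hij : i ≠ j := fun h => hne (by rw [h])
      apply hna
      apply comm_of_all_diagonal f hf
      intro x p q hpq
      have hxw : x * w = w * x := (Subgroup.mem_center_iff.mp hwZ) x
      have hne' : mat f w i i - mat f w j j ≠ 0 := sub_ne_zero.mpr hne
      rcases fin3_cases i j k p q hi hj hij hpq with h | h | ⟨h1, h2'⟩ | ⟨h1, h2'⟩
      · subst h
        exact ((hblock x q (fun h => hpq h.symm)).2)
      · subst h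
        exact ((hblock x p hpq).1)
      · subst h1; subst h2'
        have h1 := entry_comm f hxw hwd p q
        have : mat f x p q * (mat f w p p - mat f w q q) = 0 := by linear_combination -h1
        rcases mul_eq_zero.mp this with h | h
        · exact h
        · exact absurd h hne'
      · subst h1; subst h2'
        have h1 := entry_comm f hxw hwd p q
        have : mat f x p q * (mat f w q q - mat f w p p) = 0 := by linear_combination h1
        rcases mul_eq_zero.mp this with h | h
        · exact h
        · exact absurd h hne'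
  have hdetk : ∀ w ∈ Subgroup.center X, w ^ 2 = 1 → Matrix.det (mat f w) = mat f w k k := by
    intro w hwZ hw2
    obtain ⟨hs, he⟩ := hcent w hwZ hw2
    have hwd : mat f w = Matrix.diagonal (fun p => mat f w p p) :=
      mat_eq_diagonal f (hcdiag w hwZ)
    have hdet : Matrix.det (mat f w) = mat f w 0 0 * mat f w 1 1 * mat f w 2 2 := by
      conv_lhs => rw [hwd]
      rw [Matrix.det_diagonal, Fin.prod_univ_three]
    rw [hdet]
    have hsq : ∀ p, mat f w p p * mat f w p p = 1 := by
      intro p
      rcases hs p with h | h <;> rw [h] <;> ring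
    fin_cases k
    · have h12 := he 1 2 (by decide) (by decide)
      change mat f w 0 0 * mat f w 1 1 * mat f w 2 2 = mat f w 0 0
      rw [← h12, mul_assoc, hsq 1, mul_one]
    · have h02 := he 0 2 (by decide) (by decide)
      change mat f w 0 0 * mat f w 1 1 * mat f w 2 2 = mat f w 1 1
      rw [← h02, mul_comm (mat f w 0 0) (mat f w 1 1), mul_assoc, hsq 0, mul_one]
    · have h01 := he 0 1 (by decide) (by decide)
      change mat f w 0 0 * mat f w 1 1 * mat f w 2 2 = mat f w 2 2
      rw [← h01, hsq 0, one_mul]
  have htau : ∀ w ∈ Subgroup.center X, w ^ 2 = 1 → w ≠ 1 → Matrix.det (mat f w) ≠ -1 →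
      mat f w = Matrix.diagonal (fun p => if p = k then (1 : F) else -1) := by
    intro w hwZ hw2 hw1 hdet
    obtain ⟨hs, he⟩ := hcent w hwZ hw2
    have hwd : mat f w = Matrix.diagonal (fun p => mat f w p p) :=
      mat_eq_diagonal f (hcdiag w hwZ)
    rw [hdetk w hwZ hw2] at hdet
    have hkk : mat f w k k = 1 := by
      rcases hs k with h | h
      · exact h
      · exact absurd h hdet
    have hother : ∀ p, p ≠ k → mat f w p p = -1 := by
      intro p hp
      rcases hs p with h | h
      · exfalso
        apply hw1
        apply mat_inj f hf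
        rw [mat_one, hwd, ← Matrix.diagonal_one]
        congr 1
        funext q
        by_cases hq : q = k
        · rw [hq, hkk]
        · rw [he q p hq hp, h]
      · exact h
    rw [hwd]
    congr 1
    funext p
    by_cases hp : p = k
    · rw [if_pos hp, hp, hkk]
    · rw [if_neg hp, hother p hp]
  -- the element `u` with matrix `-1`
  obtain ⟨u, _, hu⟩ := hpat (fun _ => false)
  simp only [Bool.false_eq_true, if_false] at hu
  have huZ : u ∈ Subgroup.center X := by
    rw [Subgroup.mem_center_iff]
    intro x
    apply mat_inj f hf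
    rw [mat_mul, mat_mul, hu]
    ext i j
    simp [Matrix.mul_diagonal, Matrix.diagonal_mul]
  have hu2 : u ^ 2 = 1 := by
    apply mat_inj f hf
    rw [pow_two, mat_mul, mat_one, hu, Matrix.diagonal_mul_diagonal, ← Matrix.diagonal_one]
    congr 1
    funext p
    ring
  have hudet : Matrix.det (mat f u) = -1 := by
    rw [hu, Matrix.det_diagonal, Fin.prod_univ_three]
    ring
  have hu1 : u ≠ 1 := by
    intro h
    rw [h, mat_one, Matrix.det_one] at hudet
    exact hneg hudet.symm
  -- the central involution in the commutator subgroup
  obtain ⟨w0, hw0Z, hw0c, hw02, hw01⟩ := hD hX hna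
  have hw0det : Matrix.det (mat f w0) = 1 := det_mat_eq_one_of_mem_commutator f hw0c
  have hw0tau := htau w0 hw0Z hw02 hw01 (by rw [hw0det]; exact fun h => hneg h.symm)
  refine ⟨u, huZ, hu2, ?_⟩
  intro α
  by_contra hcon
  have hαZ : α u ∈ Subgroup.center X := by
    rw [Subgroup.mem_center_iff]
    intro y
    have h1 := (Subgroup.mem_center_iff.mp huZ) (α.symm y)
    have h2' := congrArg α h1
    simpa using h2'
  have hα2 : (α u) ^ 2 = 1 := by rw [← map_pow, hu2, map_one]
  have hα1 : α u ≠ 1 := by
    intro h
    apply hu1
    have := congrArg α.symm h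
    simpa using this
  have hαtau := htau (α u) hαZ hα2 hα1 hcon
  have heq : α u = w0 := mat_inj f hf (hαtau.trans hw0tau.symm)
  have huc : u ∈ commutator X := by
    have hchar : (commutator X).Characteristic := inferInstance
    have h1 := hchar.fixed α
    have h2' : u ∈ (commutator X).comap α.toMonoidHom := by
      rw [Subgroup.mem_comap]
      change α u ∈ commutator X
      rw [heq]; exact hw0c
    rwa [h1] at h2'
  have := det_mat_eq_one_of_mem_commutator f huc
  rw [hudet] at this
  exact hneg this

end Cfsg.Agent.Lib.Helper51.GL3
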